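import Cfsg.Agent.H948.Ppd.TypeB
import Cfsg.Agent.S0818
import Cfsg.Agent.S0294

/-!
# S3499, own characteristic, minus orthogonal socles: numbers (helper274)

`Bnd N l j` : the dimension `N` is too large for `|F| ^ (N (N - 1) / 2) ≤ 8 |Aut PΩ⁻_{2 l + 2}(K)| ^ 4`, `|K| ^ 2 = |F| ^ j`.
-/

set_option autoImplicit false
set_option linter.unusedSectionVars false

namespace Cfsg.Agent.H274.EPO

open Cfsg

/-- the order criterion -/
def Bnd (N l j : ℕ) : Prop := 4 * j * (2 * l ^ 2 + 3 * l + 2) + 30 < N * (N - 1)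

theorem Bnd.mono {N l j j' : ℕ} (h : Bnd N l j) (hj : j' ≤ j) : Bnd N l j' := by
  unfold Bnd at *
  have : 4 * j' * (2 * l ^ 2 + 3 * l + 2) ≤ 4 * j * (2 * l ^ 2 + 3 * l + 2) :=
    Nat.mul_le_mul_right _ (Nat.mul_le_mul_left _ hj)
  omega

theorem bnd_of {N L l j D : ℕ} (h : L ≤ N)
    (hT : L * L = 4 * j * (2 * l ^ 2 + 3 * l + 2) + 30 + L + 1 + D) : Bnd N l j := by
  unfold Bnd
  have h1 : L * (L - 1) ≤ N * (N - 1) := Nat.mul_le_mul h (by omega)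
  have h2 : L * (L - 1) + L = L * L := by
    rcases Nat.eq_zero_or_pos L with rfl | hL
    · rfl
    · obtain ⟨M, rfl⟩ : ∃ M, L = M + 1 := ⟨L - 1, by omega⟩
      simp only [Nat.add_sub_cancel]
      ring
  omega

theorem two_mul_le_pow {j : ℕ} (hj : 1 ≤ j) : 2 * j ≤ 2 ^ j := by
  induction j, hj using Nat.le_induction with
  | base => norm_num
  | succ j hj ih => rw [pow_succ]; omega

theorem two_le_of {J d : ℕ} (hd : ∃ m, 2 ≤ m ∧ d = m ^ J) : 2 ^ J ≤ d := by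
  obtain ⟨m, hm, rfl⟩ := hd
  exact Nat.pow_le_pow_left hm _

theorem six_le_pow {l : ℕ} (hl : 5 ≤ l) : 6 * l + 2 ≤ 2 ^ l := by
  induction l, hl using Nat.le_induction with
  | base => norm_num
  | succ l hl ih => rw [pow_succ]; omega

/-- the last node -/
theorem bnd_last {l j N d ε : ℕ} (hl : 3 ≤ l) (hj : 1 ≤ j) (hN : 13 ≤ N) (hd : ∃ m, 2 ≤ m ∧ d = m ^ j)
    (hε : d ≤ ε + 2) (h : 2 ^ l + l * 2 ^ (l - 1) * ε ≤ N) : Bnd N l j := by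
  have h0 := two_le_of hd
  rcases Nat.lt_or_ge 1 j with hj2 | hj1
  · obtain ⟨x, rfl⟩ : ∃ x, j = x + 2 := ⟨j - 2, by omega⟩
    obtain ⟨t, rfl⟩ : ∃ t, l = t + 3 := ⟨l - 3, by omega⟩
    have h1 := two_mul_le_pow (j := x + 2) (by omega)
    have h2 : 2 * (x + 1) ≤ ε := by omega
    have h3 : t + 4 ≤ 2 ^ (t + 3 - 1) := by
      have h4 := Nat.lt_two_pow_self (n := t)
      have h5 : 2 ^ (t + 3 - 1) = 4 * 2 ^ t := by
        have : t + 3 - 1 = 2 + t := by omega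
        rw [this, pow_add]
        norm_num
      omega
    have h4 : 2 ^ (t + 3) = 2 * 2 ^ (t + 3 - 1) := by
      rw [← pow_succ']
      congr 1
    rw [h4] at h
    have h5 : (t + 3) * (t + 4) * (2 * (x + 1)) ≤ (t + 3) * 2 ^ (t + 3 - 1) * ε :=
      Nat.mul_le_mul (Nat.mul_le_mul_left _ h3) h2
    refine bnd_of (L := 2 * (t + 4) + (t + 3) * (t + 4) * (2 * (x + 1)))
      (D := 729 + 1396 * x + 576 * x ^ 2 + 888 * t + 1590 * t * x + 672 * t * x ^ 2 + 366 * t ^ 2 + 662 * t ^ 2 * x +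
        292 * t ^ 2 * x ^ 2 + 64 * t ^ 3 + 120 * t ^ 3 * x + 56 * t ^ 3 * x ^ 2 + 4 * t ^ 4 + 8 * t ^ 4 * x +
        4 * t ^ 4 * x ^ 2) (by omega) (by ring)
  · obtain rfl : j = 1 := by omega
    rcases (show l = 3 ∨ l = 4 ∨ 5 ≤ l by omega) with rfl | rfl | hl5
    · exact bnd_of (D := 9) hN (by norm_num)
    · have h1 : 16 ≤ N := by omega
      exact bnd_of (D := 25) h1 (by norm_num)
    · have h1 := six_le_pow hl5
      obtain ⟨t, rfl⟩ : ∃ t, l = t + 5 := ⟨l - 5, by omega⟩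
      exact bnd_of (L := 6 * (t + 5) + 2) (D := 693 + 286 * t + 28 * t ^ 2) (by omega) (by ring)

/-- the first node -/
theorem bnd_first {l J N d ε : ℕ} (hl : 3 ≤ l) (hJ : 1 ≤ J) (hd : ∃ m, 2 ≤ m ∧ d = m ^ J)
    (hε : d ≤ ε + 2) (h : 2 * l + 2 * l * (l - 1) * ε ≤ N) : (J = 1 ∧ d ≤ 2) ∨ Bnd N l (2 * J) := by
  have h0 := two_le_of hd
  obtain ⟨t, rfl⟩ : ∃ t, l = t + 3 := ⟨l - 3, by omega⟩
  have e0 : t + 3 - 1 = t + 2 := by omega
  rw [e0] at h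
  rcases Nat.lt_or_ge 1 J with hj2 | hj1
  · right
    obtain ⟨x, rfl⟩ : ∃ x, J = x + 2 := ⟨J - 2, by omega⟩
    have h1 := two_mul_le_pow (j := x + 2) (by omega)
    have h2 : 2 * (x + 1) ≤ ε := by omega
    have h5 : 2 * (t + 3) * (t + 2) * (2 * (x + 1)) ≤ 2 * (t + 3) * (t + 2) * ε := Nat.mul_le_mul_left _ h2
    refine bnd_of (L := 2 * (t + 3) + 2 * (t + 3) * (t + 2) * (2 * (x + 1)))
      (D := 375 + 1184 * x + 576 * x ^ 2 + 1058 * t + 2116 * t * x + 960 * t * x ^ 2 + 688 * t ^ 2 +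
        1292 * t ^ 2 * x + 592 * t ^ 2 * x ^ 2 + 176 * t ^ 3 + 336 * t ^ 3 * x + 160 * t ^ 3 * x ^ 2 + 16 * t ^ 4 +
        32 * t ^ 4 * x + 16 * t ^ 4 * x ^ 2) (by omega) (by ring)
  · obtain rfl : J = 1 := by omega
    rcases Nat.lt_or_ge 2 d with hd2 | hd2
    · right
      have h5 : 2 * (t + 3) * (t + 2) * 1 ≤ 2 * (t + 3) * (t + 2) * ε := Nat.mul_le_mul_left _ (by omega)
      have h6 : 2 * (t + 3) * (t + 3) = 2 * (t + 3) + 2 * (t + 3) * (t + 2) * 1 := by ring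
      refine bnd_of (L := 2 * (t + 3) * (t + 3)) (D := 43 + 300 * t + 198 * t ^ 2 + 48 * t ^ 3 + 4 * t ^ 4)
        (by omega) (by ring)
    · exact Or.inl ⟨rfl, hd2⟩

theorem choose_six {l k : ℕ} (hl : 4 ≤ l) (h1 : 2 ≤ k) (h2 : k < l) : 6 * l ≤ l.choose k * 2 ^ k := by
  rcases Nat.lt_or_ge 2 k with h3 | h3
  · have h4 := H948.Ppd.TypeB.le_choose (n := l) (k := k) (by omega) h2
    have h5 : 2 ^ 3 ≤ 2 ^ k := Nat.pow_le_pow_right (by norm_num) h3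
    have h6 : l * 2 ^ 3 ≤ l.choose k * 2 ^ k := Nat.mul_le_mul h4 h5
    omega
  · obtain rfl : k = 2 := by omega
    rw [Nat.choose_two_right]
    have h4 : 2 * (l * (l - 1) / 2) = l * (l - 1) := Nat.mul_div_cancel' (Nat.even_mul_pred_self l).two_dvd
    have h5 : l * 3 ≤ l * (l - 1) := Nat.mul_le_mul_left _ (by omega)
    omega

/-- the middle nodes -/
theorem bnd_mid {l J N d k : ℕ} (hl : 4 ≤ l) (hJ : 1 ≤ J) (hd : ∃ m, 2 ≤ m ∧ d = m ^ J) (h1 : 2 ≤ k) (h2 : k < l)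
    (h : (l.choose k * 2 ^ k) * d ≤ 2 * N) : Bnd N l (2 * J) := by
  have h0 := two_le_of hd
  have h3 := two_mul_le_pow hJ
  have h4 : 6 * l * (2 * J) ≤ (l.choose k * 2 ^ k) * d := Nat.mul_le_mul (choose_six hl h1 h2) (h3.trans h0)
  obtain ⟨t, rfl⟩ : ∃ t, l = t + 4 := ⟨l - 4, by omega⟩
  obtain ⟨x, rfl⟩ : ∃ x, J = x + 1 := ⟨J - 1, by omega⟩
  have h5 : 6 * (t + 4) * (2 * (x + 1)) = 2 * (6 * (t + 4) * (x + 1)) := by ring
  exact bnd_of (L := 6 * (t + 4) * (x + 1)) (D := 153 + 760 * x + 576 * x ^ 2 + 130 * t + 418 * t * x +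
    288 * t * x ^ 2 + 20 * t ^ 2 + 56 * t ^ 2 * x + 36 * t ^ 2 * x ^ 2) (by omega) (by ring)

/-- the middle node, `l = 3` -/
theorem bnd_three {J N d ε : ℕ} (hJ : 2 ≤ J) (hd : ∃ m, 2 ≤ m ∧ d = m ^ J)
    (hε : d ≤ ε + 2) (h : 12 + 24 * ε ≤ N) : Bnd N 3 (2 * J) := by
  have h0 := two_le_of hd
  obtain ⟨x, rfl⟩ : ∃ x, J = x + 2 := ⟨J - 2, by omega⟩
  have h1 := two_mul_le_pow (j := x + 2) (by omega)
  exact bnd_of (L := 12 + 48 * (x + 1)) (D := 3045 + 5480 * x + 2304 * x ^ 2) (by omega) (by ring)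

theorem bnd_three_one {N : ℕ} (h : 20 ≤ N) : Bnd N 3 (2 * 1) := bnd_of (D := 117) h (by norm_num)

theorem bnd_three_half {N : ℕ} (h : 13 ≤ N) : Bnd N 3 1 := bnd_of (D := 9) h (by norm_num)

/-! ### the automorphism group -/

theorem prod_le (s k : ℕ) : ∏ i ∈ Finset.range k, (s ^ (2 * (i + 1)) - 1) ≤ s ^ (k * (k + 1)) := by
  induction k with
  | zero => simp
  | succ k ih =>
    rw [Finset.prod_range_succ]
    calc (∏ i ∈ Finset.range k, (s ^ (2 * (i + 1)) - 1)) * (s ^ (2 * (k + 1)) - 1)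
        ≤ s ^ (k * (k + 1)) * s ^ (2 * (k + 1)) := Nat.mul_le_mul ih (Nat.sub_le _ _)
      _ = s ^ ((k + 1) * (k + 1 + 1)) := by rw [← pow_add]; congr 1; ring

/-- **The order of `Aut PΩ⁻_{2 l + 2}(K)`.** -/
theorem aut_minus {K : Type} [Field K] [Fintype K] {l : ℕ} (hl : 3 ≤ l) {a b : K}
    (hab : ∀ z₁ z₂ : K, z₁ ^ 2 + a * z₁ * z₂ + b * z₂ ^ 2 = 0 → z₁ = 0 ∧ z₂ = 0) :
    Nat.card (MulAut (Cfsg.POmega K (Cfsg.quadFormMinus l K a b))) ≤ 8 * Fintype.card K ^ (2 * l ^ 2 + 3 * l + 2) := by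
  obtain ⟨r, hr⟩ := CharP.exists K
  have hrp : r.Prime := CharP.char_is_prime K r
  have := Fact.mk hrp
  obtain ⟨f, -, hf⟩ := FiniteField.card K r
  have h1 := Cfsg.Agent.S0818.result (F := K) r f f.pos hf (l + 1) (by omega) a b hab
  have h2 := Cfsg.Agent.S0294.result (F := K) rfl (l + 1) (by omega) a b hab
  have el : l + 1 - 1 = l := rfl
  rw [el] at h1 h2
  have hfs : 2 * (f : ℕ) ≤ Fintype.card K := by
    rw [hf]
    exact (two_mul_le_pow f.pos).trans (Nat.pow_le_pow_left hrp.two_le f)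
  rw [h1]
  set s := Fintype.card K with hs
  have hs1 : 1 ≤ s := Fintype.card_pos
  set N := Nat.card (Cfsg.POmega K (Cfsg.quadFormMinus l K a b)) with hN
  have hT : N ≤ 2 * s ^ (2 * l ^ 2 + 3 * l + 1) := by
    calc N ≤ Nat.gcd 4 (s ^ (l + 1) + 1) * N := Nat.le_mul_of_pos_left N (Nat.gcd_pos_of_pos_left _ (by norm_num))
      _ = s ^ ((l + 1) * l) * (s ^ (l + 1) + 1) * ∏ i ∈ Finset.range l, (s ^ (2 * (i + 1)) - 1) := h2
      _ ≤ s ^ ((l + 1) * l) * (2 * s ^ (l + 1)) * s ^ (l * (l + 1)) := by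
          refine Nat.mul_le_mul (Nat.mul_le_mul_left _ ?_) (prod_le s l)
          have := Nat.one_le_pow (l + 1) s hs1
          omega
      _ = 2 * s ^ (2 * l ^ 2 + 3 * l + 1) := by
          have e : 2 * l ^ 2 + 3 * l + 1 = (l + 1) * l + (l + 1) + l * (l + 1) := by ring
          rw [e, pow_add, pow_add]
          ring
  have hfac : (if r = 2 then 2 else (if Even ((l + 1) * (r ^ (f : ℕ) - 1) / 2) then 4 else 8)) ≤ 8 := by
    split_ifs <;> norm_num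
  calc (if r = 2 then 2 else (if Even ((l + 1) * (r ^ (f : ℕ) - 1) / 2) then 4 else 8)) * (f : ℕ) * N
      ≤ 8 * f * (2 * s ^ (2 * l ^ 2 + 3 * l + 1)) := Nat.mul_le_mul (Nat.mul_le_mul_right _ hfac) hT
    _ = 8 * ((2 * f) * s ^ (2 * l ^ 2 + 3 * l + 1)) := by ring
    _ ≤ 8 * (s * s ^ (2 * l ^ 2 + 3 * l + 1)) := Nat.mul_le_mul_left _ (Nat.mul_le_mul_right _ hfs)
    _ = 8 * s ^ (2 * l ^ 2 + 3 * l + 2) := by rw [pow_succ s (2 * l ^ 2 + 3 * l + 1)]; ring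

/-- the final count: `|F| = q`, `|K| = k`, `k ^ 2 = q ^ j` -/
theorem count {q k j l N n A M : ℕ} (hq : 2 ≤ q) (hjk : q ^ j = k ^ 2) (ho : q ^ (n * (n - 1) / 2) ≤ 8 * N)
    (hUB : N ≤ A ^ 4) (hA : A ≤ M) (hM : M ≤ 8 * k ^ (2 * l ^ 2 + 3 * l + 2)) (hb : Bnd n l j) : False := by
  have h1 : q ^ (n * (n - 1) / 2) ≤ 8 * (8 * k ^ (2 * l ^ 2 + 3 * l + 2)) ^ 4 :=
    ho.trans (Nat.mul_le_mul_left _ (hUB.trans (Nat.pow_le_pow_left (hA.trans hM) 4)))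
  have h2 : (q ^ (n * (n - 1) / 2)) ^ 2 = q ^ (n * (n - 1)) := by
    rw [← pow_mul, Nat.div_mul_cancel (Nat.even_mul_pred_self n).two_dvd]
  have h3 : (8 * (8 * k ^ (2 * l ^ 2 + 3 * l + 2)) ^ 4) ^ 2 = 2 ^ 30 * q ^ (4 * j * (2 * l ^ 2 + 3 * l + 2)) := by
    have e1 : 4 * j * (2 * l ^ 2 + 3 * l + 2) = j * (4 * (2 * l ^ 2 + 3 * l + 2)) := by ring
    rw [e1, pow_mul q, hjk]
    generalize 2 * l ^ 2 + 3 * l + 2 = E
    have e2 : E * (4 * 2) = 2 * (4 * E) := by ring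
    rw [← pow_mul, mul_pow, mul_pow, mul_pow, ← pow_mul, ← pow_mul, ← pow_mul, e2]
    generalize k ^ (2 * (4 * E)) = z
    ring
  have h4 : q ^ (n * (n - 1)) ≤ 2 ^ 30 * q ^ (4 * j * (2 * l ^ 2 + 3 * l + 2)) := by
    rw [← h2, ← h3]
    exact Nat.pow_le_pow_left h1 2
  have h5 : 2 ^ 30 * q ^ (4 * j * (2 * l ^ 2 + 3 * l + 2)) ≤ q ^ (4 * j * (2 * l ^ 2 + 3 * l + 2) + 30) := by
    rw [pow_add, mul_comm]
    exact Nat.mul_le_mul_left _ (Nat.pow_le_pow_left hq 30)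
  have h6 : q ^ (4 * j * (2 * l ^ 2 + 3 * l + 2) + 30) < q ^ (n * (n - 1)) := Nat.pow_lt_pow_right (by omega) hb
  omega

end Cfsg.Agent.H274.EPO
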