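import Cfsg.Agent.H419.EP.Big
import Cfsg.Agent.H914.Quad

/-!
# S3499, own characteristic, orthogonal socles: the natural module (helper274)

* **`no_omega`** : `Big A Γ S P` and `P = omegaGL Q₁`, `Q₁` a non-degenerate quadratic form, is impossible.
* `no_omega'` : the same with `omegaGL Q₁ ≤ P` and `P` fixing `Q₁`.
-/

set_option autoImplicit false
set_option linter.unusedSectionVars false

namespace Cfsg.Agent.H274.EPO

open Cfsg Cfsg.Geo Matrix Cfsg.Agent.H419.EP Cfsg.Agent.H284 Cfsg.Agent.H914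

section general

variable {ι : Type} [Fintype ι] [DecidableEq ι] {F : Type*} [Field F]

/-- elements of `omegaGL Q` are isometries -/
theorem fix_of_mem_omegaGL {Q : (ι → F) → F} {g : GL ι F} (hg : g ∈ omegaGL Q) (v : ι → F) :
    Q ((g : Matrix ι ι F) *ᵥ v) = Q v := by
  obtain ⟨x, -, rfl⟩ := hg
  exact (x.2 : _) v v

theorem fixes_omegaGL {Q : (ι → F) → F} : FixesQuadForm (matrixSet (omegaGL Q)) Q := by
  rintro s ⟨g, hg, rfl⟩ v
  exact fix_of_mem_omegaGL hg v

theorem fixes_of_le {Q : (ι → F) → F} {P S : Subgroup (GL ι F)} (h : P ≤ S) (hS : FixesQuadForm (matrixSet S) Q) :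
    FixesQuadForm (matrixSet P) Q := by
  rintro s ⟨g, hg, rfl⟩ v
  exact hS _ ⟨g, h hg, rfl⟩ v

/-- **Uniqueness of the fixed quadratic form.** -/
theorem exists_smul_of_fixes [Finite F] [Nonempty ι] {P : Subgroup (GL ι F)}
    (hirr : ActsAbsolutelyIrreducibly (matrixSet P)) {Q Q₁ : (ι → F) → F} (hQ : IsNondegenerateQuadraticForm Q)
    (hQ₁ : IsNondegenerateQuadraticForm Q₁) (h : FixesQuadForm (matrixSet P) Q)
    (h₁ : FixesQuadForm (matrixSet P) Q₁) : ∃ c : F, c ≠ 0 ∧ ∀ v, Q₁ v = c * Q v := by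
  obtain ⟨c, hc⟩ := sesq_unique hirr (IsSesq.of_bilinear hQ.polar_bilinear) hQ.nondegenerate (fixesForm_polar h)
    (IsSesq.of_bilinear hQ₁.polar_bilinear) (fixesForm_polar h₁)
  have hc0 : c ≠ 0 := by
    rintro rfl
    obtain ⟨i⟩ := ‹Nonempty ι›
    have hne : (Pi.single i 1 : ι → F) ≠ 0 := by
      intro h0
      have := congrFun h0 i
      simp at this
    obtain ⟨⟨x, hx⟩, -⟩ := hQ₁.nondegenerate _ hne
    exact hx (by rw [hc, zero_mul])
  refine ⟨c, hc0, fun v => ?_⟩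
  refine quad_unique hirr.1 (Q := Q₁) (Q' := fun v => c * Q v) (fun a v => hQ₁.smul a v)
    (fun a v => by simp only [hQ.smul]; ring) ?_ ?_ h₁ ?_ v
  · intro u v
    rw [hc]
    simp only [QuadraticMap.polar]; ring
  · intro v hv
    exact (hQ₁.nondegenerate v hv).1
  · intro s hs v
    simp only [h s hs]

theorem isometryGroup_smul {Q Q₁ : (ι → F) → F} {c : F} (hc : c ≠ 0) (h : ∀ v, Q₁ v = c * Q v) :
    isometryGroup F Q₁ = isometryGroup F Q := by
  ext g
  have key : ∀ {R : (ι → F) → F}, g ∈ isometryGroup F R ↔ ∀ v, R ((g : Matrix ι ι F) *ᵥ v) = R v :=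
    fun {R} => ⟨fun hg v => hg v v, fun hg u _ => hg u⟩
  rw [key, key]
  constructor
  · intro hg v
    have := hg v
    rw [h, h] at this
    exact mul_left_cancel₀ hc this
  · intro hg v
    rw [h, h, hg]

theorem omegaGL_comm (Q : (ι → F) → F) : omegaGL Q = ⁅isometryGroup F Q, isometryGroup F Q⁆ := by
  unfold omegaGL Omega
  exact Subgroup.map_subtype_commutator _

theorem omegaGL_smul {Q Q₁ : (ι → F) → F} {c : F} (hc : c ≠ 0) (h : ∀ v, Q₁ v = c * Q v) :
    omegaGL Q₁ = omegaGL Q := by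
  rw [omegaGL_comm, omegaGL_comm, isometryGroup_smul hc h]

end general

variable {Q : Type} [Group Q] [Finite Q] {A : Subgroup Q} {Γ : Subgroup (MulAut Q)} {ι : Type} [Fintype ι]
    [DecidableEq ι] {F : Type} [Field F] [Fintype F] {S P : Subgroup (GL ι F)}

/-- the core is not all of `S` -/
theorem ne_S (b : Big A Γ S P) : P ≠ S := by
  intro h
  apply b.ept.max.1
  rw [eq_top_iff]
  intro t _
  obtain ⟨s, rfl⟩ := b.m.surj t
  rw [← b.m.mem_hat_iff]
  apply b.core.le
  rw [h]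
  exact s.2

/-- **The natural module of an orthogonal group.** -/
theorem no_omega' (b : Big A Γ S P) {Q₁ : (ι → F) → F} (h : IsNondegenerateQuadraticForm Q₁)
    (hf : FixesQuadForm (matrixSet P) Q₁) (hP : omegaGL Q₁ ≤ P) : False := by
  rcases b.kind with ⟨-, -, nq, -, -⟩ | ⟨f, -, -, -, -, nq, -⟩ | ⟨q, hq, σ, f, -, -, -, -, nq, -⟩ |
    ⟨Qf, hQ, hS, -, -⟩
  · exact nq ⟨Q₁, h, hf⟩
  · exact nq ⟨Q₁, h, hf⟩
  · exact nq ⟨Q₁, h, hf⟩
  · have : Nonempty ι := Fintype.card_pos_iff.1 (by have := b.thirteen; omega)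
    obtain ⟨c, hc, hc'⟩ := exists_smul_of_fixes b.core.absIrred h hQ hf
      (fixes_of_le b.le_S (by rw [hS]; exact fixes_omegaGL))
    apply ne_S b
    apply le_antisymm b.le_S
    rw [hS, omegaGL_smul hc hc']
    exact hP

/-- **The natural module of an orthogonal group.** -/
theorem no_omega (b : Big A Γ S P) {Q₁ : (ι → F) → F} (h : IsNondegenerateQuadraticForm Q₁) (hP : P = omegaGL Q₁) :
    False := no_omega' b h (by rw [hP]; exact fixes_omegaGL) hP.ge

end Cfsg.Agent.H274.EPO
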