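import Cfsg.Agent.H274.EPO.PMinus
import Cfsg.Agent.H353.PanO

/-!
# S3499, own characteristic, minus orthogonal socles: from the chain theorem (helper274)

* `pan_pminus` : the socle `PΩ⁻_{2 d}(K)` has a root group datum of type `B_{d-1}` with root groups of order `|K|`, `|K| ^ 2`.
* **`own_pminus'`** : for `|K| > 2` from the chain theorem (`hO`), for `|K| = 2` from `|Q| ≤ |A| ^ 4`.
-/

set_option autoImplicit false
set_option linter.unusedSectionVars false

namespace Cfsg.Agent.H274.EPO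

open Cfsg Cfsg.Geo Cfsg.Agent.H419.EP
open scoped MatrixGroups

variable {Q : Type} [Group Q] [Finite Q] {A : Subgroup Q} {Γ : Subgroup (MulAut Q)} {ι : Type} [Fintype ι]
    [DecidableEq ι] {F : Type} [Field F] [Fintype F] {S P : Subgroup (GL ι F)}

theorem pan_pminus (K : Type) [Field K] [Fintype K] (d : ℕ)
    (hc : ringChar F = ringChar K) (a b : K) (hd : 4 ≤ d)
    (hab : ∀ z₁ z₂ : K, z₁ ^ 2 + a * z₁ * z₂ + b * z₂ ^ 2 = 0 → z₁ = 0 ∧ z₂ = 0)
    (hS : Nonempty (socle P ≃* Cfsg.POmega K (Cfsg.quadFormMinus (d - 1) K a b))) :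
    H50.Her.HasPan (ringChar F) (CoxeterMatrix.B (d - 1))
      (fun i => if (i : ℕ) + 1 < d - 1 then Nat.card K else Nat.card K ^ 2) (socle P) := by
  obtain ⟨e⟩ := hS
  have hK : CharP K (ringChar F) := by
    rw [hc]
    exact ringChar.charP K
  have hF : CharP F (ringChar F) := ringChar.charP F
  have hp : Fact (ringChar F).Prime := ⟨CharP.char_is_prime F _⟩
  exact (H353.PanO.pan_po_minus hab (by omega)).of_equiv e.symm

/-- **S3499-VII13-PMinus**, from the chain theorem. -/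
theorem own_pminus' (x : Big A Γ S P)
    (hO : ∀ {l : ℕ} {M : CoxeterMatrix (Fin l)} {q : Fin l → ℕ}, H50.Her.HasPan (ringChar F) M q (socle P) →
      (∀ i, 3 ≤ q i) → 3 ≤ l → False)
    (K : Type) [Field K] [Fintype K] (hUB : Fintype.card K = 2 → Nat.card Q ≤ Nat.card A ^ 4) (d : ℕ)
    (hc : ringChar F = ringChar K) (a b : K) (hd : 4 ≤ d)
    (hab : ∀ z₁ z₂ : K, z₁ ^ 2 + a * z₁ * z₂ + b * z₂ ^ 2 = 0 → z₁ = 0 ∧ z₂ = 0)
    (hS : Nonempty (socle P ≃* Cfsg.POmega K (Cfsg.quadFormMinus (d - 1) K a b))) : False := by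
  have h1 : 1 < Fintype.card K := Fintype.one_lt_card
  rcases (show Fintype.card K = 2 ∨ 3 ≤ Fintype.card K by omega) with h2 | h3
  · exact own_pminus x (hUB h2) K d hc a b hd hab hS
  · refine hO (pan_pminus K d hc a b hd hab hS) (fun i => ?_) (by omega)
    rw [Nat.card_eq_fintype_card]
    split_ifs
    · exact h3
    · nlinarith

end Cfsg.Agent.H274.EPO
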